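import Mathlib
import Cfsg.Agent.Lib.Helper41.CS3.GoodDefs
import Cfsg.Agent.Lib.Helper71.CS3.Basics

/-!
# CS3 (S4284), part GOOD: packages [MSA] and [NRM]

For `y` with `Z2 s S y` the map `σ ↦ zc y σ = σ y σ⁻¹ y⁻¹` is an (anti)homomorphism from `S`
to the centre of `S`, with kernel `C_S(y)` and image of exponent `s`.
-/

set_option autoImplicit false

namespace Cfsg.Agent.Lib.Helper26.CS3

open Cfsg.Agent.Lib.Helper41.CS3

universe u

/-- the commutator `σ y σ⁻¹ y⁻¹`. -/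
def zc {G : Type u} [Group G] (y σ : G) : G := σ * y * σ⁻¹ * y⁻¹

section

variable {G : Type u} [Group G] {s : ℕ} {S : Subgroup G} {y : G}

theorem zc_mem (h : Z2 s S y) {σ : G} (hσ : σ ∈ S) : zc y σ ∈ S :=
  S.mul_mem (S.mul_mem (S.mul_mem hσ h.mem) (S.inv_mem hσ)) (S.inv_mem h.mem)

theorem zc_comm (h : Z2 s S y) {σ τ : G} (hσ : σ ∈ S) (hτ : τ ∈ S) :
    zc y σ * τ = τ * zc y σ :=
  h.comm σ hσ τ hτ

theorem zc_mul (h : Z2 s S y) {σ τ : G} (hσ : σ ∈ S) (hτ : τ ∈ S) :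
    zc y (σ * τ) = zc y τ * zc y σ := by
  have h1 : zc y (σ * τ) = σ * zc y τ * (y * σ⁻¹ * y⁻¹) := by
    simp only [zc]; group
  have h2 : σ * zc y τ = zc y τ * σ := (zc_comm h hτ hσ).symm
  rw [h1, h2]
  simp only [zc]; group

theorem zc_one : zc y 1 = 1 := by simp [zc]

theorem zc_inv (h : Z2 s S y) {σ : G} (hσ : σ ∈ S) : zc y σ⁻¹ = (zc y σ)⁻¹ := by
  have h1 := zc_mul h hσ (S.inv_mem hσ)
  rw [mul_inv_cancel, zc_one] at h1
  exact eq_inv_of_mul_eq_one_left h1.symm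

theorem zc_pow (h : Z2 s S y) {σ : G} (hσ : σ ∈ S) (k : ℕ) :
    zc y (σ ^ k) = (zc y σ) ^ k := by
  induction k with
  | zero => simp [zc_one]
  | succ k ih =>
    rw [pow_succ, zc_mul h (S.pow_mem hσ k) hσ, ih, pow_succ']

theorem zc_eq_one_iff {σ : G} : zc y σ = 1 ↔ σ ∈ Cn y := by
  rw [Subgroup.mem_centralizer_iff]
  simp only [Set.mem_singleton_iff, forall_eq]
  unfold zc
  constructor
  · intro h
    have h1 : σ * y * σ⁻¹ = y := by rwa [mul_inv_eq_one] at h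
    have h2 : σ * y = y * σ := by rwa [mul_inv_eq_iff_eq_mul] at h1
    exact h2.symm
  · intro h
    rw [← h]; group

theorem zc_pow_prime (h : Z2 s S y) {σ : G} (hσ : σ ∈ S) : (zc y σ) ^ s = 1 := by
  have h1 : zc y σ * y = σ * y * σ⁻¹ := by simp only [zc]; group
  have hc : Commute (zc y σ) y := zc_comm h hσ h.mem
  have h2 : (zc y σ * y) ^ s = (zc y σ) ^ s * y ^ s := hc.mul_pow s
  have h3 : (σ * y * σ⁻¹) ^ s = σ * y ^ s * σ⁻¹ := conj_pow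
  have h4 : σ * y ^ s * σ⁻¹ = y ^ s := by
    rw [← h.pow σ hσ, mul_inv_cancel_right]
  rw [h1, h3, h4] at h2
  exact mul_right_cancel (b := y ^ s) (by rw [one_mul]; exact h2.symm)

end

/-- [MSA] -/
theorem pkgMsa : PkgMsa.{u} := by
  intro G _ _ s _ S y h
  refine ⟨fun σ hσ => ?_, fun σ hσ τ hτ => ?_⟩
  · rw [← zc_eq_one_iff, zc_pow h hσ, zc_pow_prime h hσ]
  · rw [← zc_eq_one_iff]
    have hσ' := S.inv_mem hσ
    have hτ' := S.inv_mem hτ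
    rw [zc_mul h (S.mul_mem (S.mul_mem hσ hτ) hσ') hτ', zc_mul h (S.mul_mem hσ hτ) hσ',
      zc_mul h hσ hτ, zc_inv h hσ, zc_inv h hτ]
    have hc : zc y σ * zc y τ = zc y τ * zc y σ := zc_comm h hσ (zc_mem h hτ)
    rw [← hc]; group

/-- [NRM] -/
theorem pkgNrm : PkgNrm.{u} := by
  intro G _ _ m n hyp s hs hsm S y h σ hσ c hc
  haveI : Fact s.Prime := ⟨hs⟩
  have hσ' : σ⁻¹ ∈ (S : Subgroup G) := Subgroup.inv_mem _ hσ
  have hzS : zc y σ⁻¹ ∈ (S : Subgroup G) := zc_mem h hσ'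
  have hzc : zc y σ⁻¹ ∈ Subgroup.center G :=
    Cfsg.Agent.Lib.Helper71.CS3.center_sylow_le hyp hsm S hzS (fun τ hτ => zc_comm h hσ' hτ)
  rw [Subgroup.mem_centralizer_iff] at hc ⊢
  simp only [Set.mem_singleton_iff, forall_eq] at hc ⊢
  have h1 : σ⁻¹ * y * σ = zc y σ⁻¹ * y := by simp only [zc]; group
  have h2 : zc y σ⁻¹ * c = c * zc y σ⁻¹ := (Subgroup.mem_center_iff.mp hzc c).symm
  have h3 : (σ⁻¹ * y * σ) * c = c * (σ⁻¹ * y * σ) := by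
    rw [h1, mul_assoc, hc, ← mul_assoc, h2, mul_assoc]
  calc y * (σ * c * σ⁻¹) = σ * ((σ⁻¹ * y * σ) * c) * σ⁻¹ := by group
    _ = σ * (c * (σ⁻¹ * y * σ)) * σ⁻¹ := by rw [h3]
    _ = σ * c * σ⁻¹ * y := by group

end Cfsg.Agent.Lib.Helper26.CS3
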